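import Cfsg.Agent.H721.SR.Base

/-!
# S4971: non-real elements of `A_11` and `A_9`, lifting through a centralizer of an involution
-/

set_option autoImplicit false
set_option maxRecDepth 100000

namespace Cfsg.Agent.H973.SR

open Cfsg.Agent.H721.SR Equiv Equiv.Perm

/-- **The centraliser trick, lifting an odd non-real element along a surjection with 2-kernel.** -/
theorem nrel_of_surj {G K : Type*} [Group G] [Group K] {z : G} (hz : z * z = 1)
    (f : ↥(Subgroup.centralizer {z} : Subgroup G) →* K) (hf : Function.Surjective f) (k : ℕ)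
    (hk : ∀ x, f x = 1 → x ^ 2 ^ k = 1) {c : K} (hc : Odd (orderOf c)) (hn : ¬ IsConj c c⁻¹) :
    NRel G := by
  obtain ⟨g, hg⟩ := hf c
  have hcop : (2 ^ k).Coprime (orderOf c) := (Nat.coprime_two_left.2 hc).pow_left k
  obtain ⟨j, hj⟩ := exists_pow_eq_self_of_coprime hcop
  set y := (g ^ 2 ^ k) ^ j with hy
  have hfy : f y = c := by rw [hy, map_pow, map_pow, hg, hj]
  have hym : y ^ orderOf c = 1 := by
    have h1 : f (g ^ orderOf c) = 1 := by rw [map_pow, hg, pow_orderOf_eq_one]
    have h2 := hk _ h1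
    rw [hy, ← pow_mul, ← pow_mul]
    rw [← pow_mul] at h2
    have h3 : 2 ^ k * (j * orderOf c) = orderOf c * 2 ^ k * j := by ring
    rw [h3, pow_mul, h2, one_pow]
  have hzc : z ∈ (Subgroup.centralizer {z} : Subgroup G) := Subgroup.mem_centralizer_singleton_iff.2 rfl
  have hcomm : Commute z (y : G) := (Subgroup.mem_centralizer_singleton_iff.1 y.2).symm
  refine ⟨z * (y : G), fun hcon => hn ?_⟩
  have hzx : z ∈ Subgroup.zpowers (z * (y : G)) := by
    obtain ⟨l, hl⟩ := hc
    refine Subgroup.mem_zpowers_iff.2 ⟨(orderOf c : ℕ), ?_⟩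
    have h2 : (y : G) ^ orderOf c = 1 := by
      rw [← Subgroup.coe_pow, hym, Subgroup.coe_one]
    rw [zpow_natCast, hcomm.mul_pow, h2, mul_one, hl, pow_succ, pow_mul, pow_two, hz, one_pow,
      one_mul]
  obtain ⟨t, ht, h⟩ := isConj_centralizer hz hzx hcon
  have htz : t * z = z * t := Subgroup.mem_centralizer_singleton_iff.1 ht
  have h1 : t * (y : G) * t⁻¹ = (y : G)⁻¹ := by
    have hzi : z⁻¹ = z := inv_eq_of_mul_eq_one_left hz
    rw [mul_inv_rev, hzi] at h
    have h2 : t * (z * (y : G)) * t⁻¹ = z * (t * (y : G) * t⁻¹) := by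
      rw [← mul_assoc, htz]
      group
    rw [h2] at h
    have h3 : (y : G)⁻¹ * z = z * (y : G)⁻¹ := (hcomm.inv_right.eq).symm
    rw [h3] at h
    exact mul_left_cancel h
  refine isConj_iff.2 ⟨f ⟨t, ht⟩, ?_⟩
  rw [← hfy, ← map_mul, ← map_inv, ← map_mul, ← map_inv]
  congr 1
  exact Subtype.ext h1

/-- An even permutation whose centralizer consists of even permutations and which is inverted by an
odd permutation is not real in the alternating group. -/
theorem not_real_alt {α : Type*} [Fintype α] [DecidableEq α] {c : alternatingGroup α}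
    (hc : Subgroup.centralizer {(c : Perm α)} ≤ alternatingGroup α) {r : Perm α}
    (hr : r * c * r⁻¹ = (c : Perm α)⁻¹) (hs : sign r = -1) : ¬ IsConj c c⁻¹ := by
  intro h
  obtain ⟨t, ht⟩ := isConj_iff.1 h
  have ht' : (t : Perm α) * c * (t : Perm α)⁻¹ = (c : Perm α)⁻¹ := by
    have := congrArg Subtype.val ht
    simpa using this
  have h1 : r⁻¹ * t ∈ Subgroup.centralizer {(c : Perm α)} := by
    rw [Subgroup.mem_centralizer_singleton_iff]
    have h2 : r⁻¹ * (t * c * (t : Perm α)⁻¹) * r = r⁻¹ * (r * c * r⁻¹) * r := by rw [ht', hr]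
    have h3 : r⁻¹ * t * c = r⁻¹ * (t * c * (t : Perm α)⁻¹) * r * (r⁻¹ * t) := by group
    rw [h3, h2]
    group
  have h4 := hc h1
  rw [mem_alternatingGroup, Perm.sign_mul, Perm.sign_inv, hs, (mem_alternatingGroup).1 t.2] at h4
  exact absurd h4 (by decide)

/-- the 11-cycle -/
def c11 : Perm (Fin 11) := finRotate 11

theorem c11_mem : c11 ∈ alternatingGroup (Fin 11) := by
  rw [mem_alternatingGroup, c11, sign_finRotate]
  decide

theorem not_real_c11 : ¬ IsConj (⟨c11, c11_mem⟩ : alternatingGroup (Fin 11)) ⟨c11, c11_mem⟩⁻¹ := by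
  refine not_real_alt (r := Equiv.subLeft (0 : Fin 11)) ?_ (by decide) (by decide)
  rw [Equiv.Perm.centralizer_le_alternating_iff]
  have h : c11.cycleType = {11} := cycleType_finRotate
  show (∀ c ∈ c11.cycleType, Odd c) ∧ _ ≤ c11.cycleType.sum + 1 ∧ ∀ i, c11.cycleType.count i ≤ 1
  rw [h]
  refine ⟨by decide, by decide, fun i => ?_⟩
  rw [Multiset.count_singleton]
  split_ifs <;> norm_num

theorem order_c11 : orderOf (⟨c11, c11_mem⟩ : alternatingGroup (Fin 11)) = 11 := by
  rw [Subgroup.orderOf_mk, ← lcm_cycleType]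
  have h : c11.cycleType = {11} := cycleType_finRotate
  rw [h]
  rfl

/-- the element of cycle type 5, 3, 1 -/
def c9 : Perm (Fin 9) := c[0, 1, 2, 3, 4] * c[5, 6, 7]

theorem c9_mem : c9 ∈ alternatingGroup (Fin 9) := by
  rw [mem_alternatingGroup]
  decide

theorem cycleType_c9 : c9.cycleType = {5, 3} := by
  decide +kernel

/-- the inverter -/
def r9 : Perm (Fin 9) := swap 1 4 * swap 2 3 * swap 6 7

theorem not_real_c9 : ¬ IsConj (⟨c9, c9_mem⟩ : alternatingGroup (Fin 9)) ⟨c9, c9_mem⟩⁻¹ := by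
  refine not_real_alt (r := r9) ?_ (by decide) (by decide)
  rw [Equiv.Perm.centralizer_le_alternating_iff]
  show (∀ c ∈ c9.cycleType, Odd c) ∧ _ ≤ c9.cycleType.sum + 1 ∧ ∀ i, c9.cycleType.count i ≤ 1
  rw [cycleType_c9]
  refine ⟨by decide, by decide, fun i => ?_⟩
  have hnd : ({5, 3} : Multiset ℕ).Nodup := by decide
  exact Multiset.nodup_iff_count_le_one.1 hnd i

theorem order_c9 : orderOf (⟨c9, c9_mem⟩ : alternatingGroup (Fin 9)) = 15 := by
  rw [Subgroup.orderOf_mk, ← lcm_cycleType, cycleType_c9]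
  rfl

end Cfsg.Agent.H973.SR
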