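import Cfsg.Agent.H973.SR.Alt
import Cfsg.Agent.TypeM.FactsLy
import Cfsg.Agent.MonsterX.ThOneClass

/-!
# S4971: `Ly` and `Th` have non-real elements
-/

set_option autoImplicit false

namespace Cfsg.Agent.H973.SR

open Cfsg Cfsg.Agent.H721.SR Equiv

theorem nrel_ly_model : NRel Cfsg.Spor.Ly := by
  obtain ⟨L⟩ := Cfsg.Agent.TypeM.FactsLy.exists_mt_ly
  have hmem : ∀ x, L.K.π x ∈ alternatingGroup (Fin 11) := by
    intro x
    rw [← L.K.range_eq]
    exact ⟨x, rfl⟩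
  refine nrel_of_surj (z := L.t) L.t_mul_t (L.K.π.codRestrict (alternatingGroup (Fin 11)) hmem) ?_ 1 ?_
    (c := ⟨c11, c11_mem⟩) ?_ not_real_c11
  · rintro ⟨s, hs⟩
    rw [← L.K.range_eq] at hs
    obtain ⟨x, rfl⟩ := hs
    exact ⟨x, rfl⟩
  · intro x hx
    have h1 : L.K.π x = 1 := congrArg Subtype.val hx
    rcases (L.K.ker x).1 h1 with h | h
    · rw [h, one_pow]
    · rw [h, pow_one, pow_two, L.K.z_mul_z]
  · rw [order_c11]
    decide

/-- **`Ly` has a non-real element.** -/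
theorem nrel_ly {S : Type*} [Group S] (h : Cfsg.Spor.IsoLy S) : NRel S := by
  obtain ⟨e⟩ := h
  exact nrel_ly_model.congr e.symm

theorem nrel_th_model : NRel Cfsg.Spor.Th := by
  obtain ⟨Q, hQn, hQ9, -, -, ⟨e⟩⟩ := Cfsg.Agent.MonsterX.ThOneClass.struct
  have ho := Cfsg.Agent.MonsterX.ThOneClass.orderOf_a
  refine nrel_of_surj ?_
    (e.toMonoidHom.comp (QuotientGroup.mk' Q)) ?_ 9 ?_ (c := ⟨c9, c9_mem⟩) ?_ not_real_c9
  · rw [← pow_two, ← ho, pow_orderOf_eq_one]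
  · exact e.surjective.comp (QuotientGroup.mk'_surjective Q)
  · intro x hx
    have h1 : (QuotientGroup.mk' Q x) = 1 := e.injective (by rw [map_one]; exact hx)
    have h2 : x ∈ Q := (QuotientGroup.eq_one_iff x).1 h1
    have h3 : (⟨x, h2⟩ : Q) ^ Nat.card Q = 1 := pow_card_eq_one'
    rw [hQ9] at h3
    exact congrArg Subtype.val h3
  · rw [order_c9]
    decide

/-- **`Th` has a non-real element.** -/
theorem nrel_th {S : Type*} [Group S] (h : Cfsg.Spor.IsoTh S) : NRel S := by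
  obtain ⟨e⟩ := h
  exact nrel_th_model.congr e.symm

end Cfsg.Agent.H973.SR
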